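import Cfsg.Agent.H6.LR.P.Pres
import Cfsg.Agent.H6.LR.A.Chk0

set_option autoImplicit false
set_option maxRecDepth 100000
set_option Elab.async false

namespace Cfsg.H6.LR.A

theorem ptOK : PtOK img 11 LS EQS := ptOK_of_chk fun p h1 h2 => by
  rw [← ptU_eq]
  exact (allR_range p0 (by norm_num : 0 + 11 = 11)) p h1 h2

theorem hrep : repOK 38 4601798223793757641967235317486930856385528678621748064675590268617106973086074753284964608 LS EQS D LR.P.RE = true := by decide +kernel

theorem rep : Good (evR img 11 38) 4601798223793757641967235317486930856385528678621748064675590268617106973086074753284964608 ∧ Rels (evR img 11 38) LR.P.RE ∧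
    IsAct (MonoidHom.id _) (evR img 11 38) img 11 38 := rep_sound ptOK hrep


end Cfsg.H6.LR.A
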